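-- Team project APQ (S4150), package [NTINEQ] (helper6).
import Mathlib
import Cfsg.Agent.Lib.Helper69.APQ.Defs

set_option autoImplicit false

namespace Cfsg.Agent.Lib.Helper6.APQ

open Real

theorem ntineq_concave : ConcaveOn ℝ (Set.Ioi (0.5 : ℝ))
    (fun x : ℝ => log x + √(2 * x) * log (2 * x) + 2 * log (2 * x) - log 4 / 3 * x) := by
  apply ConcaveOn.sub
  · apply ConcaveOn.add
    · apply ConcaveOn.add
      · exact strictConcaveOn_log_Ioi.concaveOn.subset
          (Set.Ioi_subset_Ioi (by norm_num)) (convex_Ioi 0.5)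
      · convert!
          ((strictConcaveOn_sqrt_mul_log_Ioi.concaveOn.comp_linearMap ((2 : ℝ) • LinearMap.id)))
          using 1
        ext x
        simp only [Set.mem_Ioi, Set.mem_preimage, LinearMap.smul_apply,
          LinearMap.id_coe, id_eq, smul_eq_mul]
        rw [← mul_lt_mul_iff_right₀ (two_pos)]
        norm_num1
        rfl
    · have h1 : ConcaveOn ℝ (Set.Ioi (0.5 : ℝ)) (fun x : ℝ => 2 * log 2 + 2 * log x) := by
        apply ConcaveOn.add
        · exact concaveOn_const _ (convex_Ioi 0.5)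
        · have h2 : ConcaveOn ℝ (Set.Ioi (0.5 : ℝ)) log :=
            strictConcaveOn_log_Ioi.concaveOn.subset
              (Set.Ioi_subset_Ioi (by norm_num)) (convex_Ioi 0.5)
          have h3 := h2.smul (c := (2 : ℝ)) (by norm_num)
          simpa [smul_eq_mul] using h3
      refine h1.congr ?_
      intro x hx
      have hx0 : (0 : ℝ) < x := lt_trans (by norm_num) (Set.mem_Ioi.mp hx)
      show 2 * log 2 + 2 * log x = 2 * log (2 * x)
      rw [log_mul (by norm_num) hx0.ne']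
      ring
  apply ConvexOn.smul
  · refine div_nonneg (log_nonneg (by norm_num1)) (by norm_num1)
  · exact convexOn_id (convex_Ioi (0.5 : ℝ))

theorem ntineq_f_nonpos {x : ℝ} (hx : (2048 : ℝ) ≤ x) :
    log x + √(2 * x) * log (2 * x) + 2 * log (2 * x) - log 4 / 3 * x ≤ 0 := by
  have h := ntineq_concave
  have hl2 : 0 < log 2 := log_pos (by norm_num)
  have hl4 : log 4 = 2 * log 2 := by
    have h4 : (4 : ℝ) = 2 ^ 2 := by norm_num
    rw [h4, log_pow]; norm_num
  -- test point 2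
  have hf2 : 0 ≤ (fun x : ℝ => log x + √(2 * x) * log (2 * x) + 2 * log (2 * x) - log 4 / 3 * x)
      2 := by
    have hs : √(2 * 2 : ℝ) = 2 :=
      (sqrt_eq_iff_mul_self_eq_of_pos (by norm_num1)).mpr (by norm_num1)
    show 0 ≤ log 2 + √(2 * 2) * log (2 * 2) + 2 * log (2 * 2) - log 4 / 3 * 2
    rw [hs]
    have h22 : (2 * 2 : ℝ) = 4 := by norm_num
    rw [h22, hl4]
    nlinarith
  have hf2048 : (fun x : ℝ => log x + √(2 * x) * log (2 * x) + 2 * log (2 * x) - log 4 / 3 * x)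
      2048 ≤ 0 := by
    have hs : √(2 * 2048 : ℝ) = 64 :=
      (sqrt_eq_iff_mul_self_eq_of_pos (by norm_num1)).mpr (by norm_num1)
    show log 2048 + √(2 * 2048) * log (2 * 2048) + 2 * log (2 * 2048) - log 4 / 3 * 2048 ≤ 0
    rw [hs]
    have h1 : (2048 : ℝ) = 2 ^ 11 := by norm_num
    have h2 : (2 * 2048 : ℝ) = 2 ^ 12 := by norm_num
    rw [h2, h1, log_pow, log_pow, hl4]
    push_cast
    nlinarith
  have h1 : (0.5 : ℝ) < 2 := by norm_num
  have h2 : (2 : ℝ) < 2048 := by norm_num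
  exact (h.right_le_of_le_left'' h1 ((h1.trans h2).trans_le hx) h2 hx (hf2048.trans hf2)).trans
    hf2048

theorem ntineq_real {x : ℝ} (hx : (2048 : ℝ) ≤ x) :
    x * ((2 * x) ^ √(2 * x) * (4 : ℝ) ^ (2 * x / 3) * (2 * x) ^ (2 : ℝ)) ≤ (4 : ℝ) ^ x := by
  have hx0 : 0 < x := lt_of_lt_of_le (by norm_num) hx
  have h2x : 0 < 2 * x := by positivity
  have ha : 0 < (2 * x) ^ √(2 * x) := rpow_pos_of_pos h2x _
  have hb : 0 < (4 : ℝ) ^ (2 * x / 3) := rpow_pos_of_pos (by norm_num) _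
  have hc : 0 < (2 * x) ^ (2 : ℝ) := rpow_pos_of_pos h2x _
  have hd : 0 < (4 : ℝ) ^ x := rpow_pos_of_pos (by norm_num) _
  have hA : 0 < x * ((2 * x) ^ √(2 * x) * (4 : ℝ) ^ (2 * x / 3) * (2 * x) ^ (2 : ℝ)) := by
    positivity
  rw [← log_le_log_iff hA hd, log_mul hx0.ne' (by positivity), log_mul (by positivity) hc.ne',
    log_mul ha.ne' hb.ne', log_rpow h2x, log_rpow (by norm_num), log_rpow h2x,
    log_rpow (by norm_num)]
  have h := ntineq_f_nonpos hx
  linarith

/-- [NTINEQ] -/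
theorem pkgNTIneq : Cfsg.Agent.Lib.Helper69.APQ.PkgNTIneq := by
  intro n hn
  rw [← @Nat.cast_le ℝ]
  simp only [Nat.cast_mul, Nat.cast_pow, ← Real.rpow_natCast, Nat.cast_ofNat]
  refine _root_.trans ?_ (ntineq_real (by exact_mod_cast hn))
  gcongr
  · have n2_pos : 0 < 2 * n := by positivity
    exact mod_cast n2_pos
  · exact_mod_cast Real.nat_sqrt_le_real_sqrt
  · norm_num1
  · exact Nat.cast_div_le.trans (by norm_cast)

end Cfsg.Agent.Lib.Helper6.APQ
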